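import Mathlib
import Cfsg.Agent.Lib.Helper14.PG63.Defs

/-!
# Project PG63 (S3664): package [LFPF]

The elements of order 13 of `L = Sz(8) ⋊ ⟨frobenius⟩` have no nonzero fixed point on `W`:
the field automorphism part has order dividing `gcd(13, 3) = 1`, so the element is `(t, 1)` with
`t ^ 13 = 1`, `t ≠ 1`, and [FPF] applies.
-/

set_option autoImplicit false

namespace Cfsg.Agent.Lib.Helper46.PG63

open Matrix Cfsg.Agent.Lib.Helper14.PG63

universe u

/-- **[LFPF]** -/
theorem pkgLFpf : PkgLFpf.{u} := by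
  intro hStr _hCls hFrob hFpf F _ _ _ hcard x hx X hX
  obtain ⟨hP, hτ⟩ := hStr hcard (x : Amb F) x.2
  obtain ⟨hfrob, -⟩ := hFrob (F := F) hcard
  have hy13 : orderOf (x : Amb F) = 13 := by rw [Subgroup.orderOf_coe]; exact hx
  have hpow : (x : Amb F) ^ 13 = 1 := by rw [← hy13]; exact pow_orderOf_eq_one _
  -- the automorphism part is trivial
  have hr13 : (x : Amb F).right ^ 13 = 1 := by
    have h := congrArg SemidirectProduct.right hpow
    rw [← SemidirectProduct.rightHom_eq_right, map_pow] at h
    simpa using h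
  have hd1 : orderOf (x : Amb F).right ∣ 13 := orderOf_dvd_of_pow_eq_one hr13
  have hd2 : orderOf (x : Amb F).right ∣ 3 := by
    rw [← hfrob]
    exact orderOf_dvd_of_mem_zpowers hτ
  have hr1 : (x : Amb F).right = 1 := by
    rw [← orderOf_eq_one_iff]
    have h := Nat.dvd_gcd hd1 hd2
    have e : Nat.gcd 13 3 = 1 := by norm_num
    rw [e] at h
    exact Nat.dvd_one.mp h
  have hinl : (x : Amb F) = SemidirectProduct.inl (x : Amb F).left := by
    apply SemidirectProduct.ext
    · rw [SemidirectProduct.left_inl]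
    · rw [SemidirectProduct.right_inl, hr1]
  have hl13 : (x : Amb F).left ^ 13 = 1 := by
    have h := hpow
    rw [hinl, ← map_pow, ← map_one (SemidirectProduct.inl : GL (Fin 4) F →* Amb F)] at h
    exact SemidirectProduct.inl_injective h
  have ht13 : ((x : Amb F).left : Matrix (Fin 4) (Fin 4) F) ^ 13 = 1 := by
    rw [← Units.val_pow_eq_pow_val, hl13, Units.val_one]
  have ht1 : ((x : Amb F).left : Matrix (Fin 4) (Fin 4) F) ≠ 1 := by
    intro h1
    have h2 : (x : Amb F).left = 1 := Units.ext h1
    have h3 : (x : Amb F) = 1 := by rw [hinl, h2, map_one]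
    rw [h3, orderOf_one] at hy13
    norm_num at hy13
  have hX' : (x : Amb F) • X = X := hX
  rw [smul_def, hr1] at hX'
  have hmap : X.map (1 : RingAut F) = X := by
    ext i j
    rfl
  rw [hmap] at hX'
  exact hFpf hcard _ X hP ht13 ht1 hX'

end Cfsg.Agent.Lib.Helper46.PG63
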